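import Mathlib
import Cfsg.Prelude.Def_OddOrderLocal
import Cfsg.Agent.S1445
import Cfsg.Agent.Lib.Helper79.BG.Util2
import Cfsg.Agent.Lib.Helper1.MixBase

/-!
PKG-B for Bender–Glauberman 11.7 (helper15's project): a fixed-point-free element of prime order
centralizes a normalized `q`-group acting faithfully (an application of B–G Theorem 3.7 = S1445).
-/

set_option autoImplicit false

namespace Cfsg.Agent.Lib.Helper57.BG

open Cfsg
open scoped commutatorElement

/-- In `K = N R` with `N` a `q'`-subgroup normalized by the `q`-group `R` and `C_R(N) = 1`,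
the Fitting subgroup of `K` lies in `N`. -/
theorem fittingOf_sup_le_of_centralizer_bot {J : Type*} [Group J] [Finite J] (N R : Subgroup J)
    {q : ℕ} [Fact q.Prime] (hRN : R ≤ Subgroup.normalizer (N : Set J)) (hR : IsPGroup q R)
    (hqN : ¬ q ∣ Nat.card N) (hY : R ⊓ Subgroup.centralizer (N : Set J) = ⊥) :
    Cfsg.fittingOf (N ⊔ R) ≤ N := by
  classical
  have hq : q.Prime := Fact.out
  have hKN : N ⊔ R ≤ Subgroup.normalizer (N : Set J) := sup_le Subgroup.le_normalizer hRN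
  have hFK : Cfsg.fittingOf (N ⊔ R) ≤ N ⊔ R := Subgroup.map_subtype_le _
  have hFnil := Cfsg.Agent.Lib.Helper79.BG.fittingOf_nilpotent (N ⊔ R)
  have hKF := Cfsg.Agent.Lib.Helper79.BG.fittingOf_normalizer (N ⊔ R)
  have hcardK : Nat.card (N ⊔ R : Subgroup J) ∣ Nat.card N * Nat.card R := by
    rw [sup_comm, mul_comm]
    exact Cfsg.Agent.Lib.Helper1.Mix.card_sup_dvd R N hRN
  obtain ⟨n, hn⟩ := IsPGroup.iff_card.mp hR
  have hcopN : ∀ m : ℕ, (q ^ m).Coprime (Nat.card N) :=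
    fun m => Nat.Coprime.pow_left m ((Nat.Prime.coprime_iff_not_dvd hq).mpr hqN)
  -- a Sylow `q`-subgroup of `F`
  obtain ⟨Q'⟩ : Nonempty (Sylow q (Cfsg.fittingOf (N ⊔ R))) := inferInstance
  have hTn := Cfsg.Agent.Lib.Helper79.BG.le_normalizer_sylow_of_nilpotent hFnil hKF Q'
  have hTq : IsPGroup q ((Q' : Subgroup (Cfsg.fittingOf (N ⊔ R))).map
      (Cfsg.fittingOf (N ⊔ R)).subtype) := Q'.isPGroup'.map _
  have hTF : (Q' : Subgroup (Cfsg.fittingOf (N ⊔ R))).map (Cfsg.fittingOf (N ⊔ R)).subtype ≤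
      Cfsg.fittingOf (N ⊔ R) := Subgroup.map_subtype_le _
  obtain ⟨T, hTdef⟩ : ∃ T : Subgroup J,
      T = (Q' : Subgroup (Cfsg.fittingOf (N ⊔ R))).map (Cfsg.fittingOf (N ⊔ R)).subtype := ⟨_, rfl⟩
  rw [← hTdef] at hTn hTq hTF
  have hTK : T ≤ N ⊔ R := hTF.trans hFK
  -- `T ≤ R`
  have hTR : T ≤ R := by
    have hsupq : IsPGroup q (T ⊔ R : Subgroup J) :=
      IsPGroup.to_sup_of_normal_left' hTq hR (le_sup_right.trans hTn)
    obtain ⟨m, hm⟩ := IsPGroup.iff_card.mp hsupq
    have h1 : Nat.card (T ⊔ R : Subgroup J) ∣ Nat.card N * Nat.card R :=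
      (Subgroup.card_dvd_of_le (sup_le hTK le_sup_right)).trans hcardK
    have h2 : Nat.card (T ⊔ R : Subgroup J) ∣ Nat.card R := by
      rw [hm] at h1 ⊢
      exact (hcopN m).dvd_of_dvd_mul_left h1
    have h3 : R = T ⊔ R :=
      Subgroup.eq_of_le_of_card_ge le_sup_right (Nat.le_of_dvd Nat.card_pos h2)
    exact le_sup_left.trans h3.ge
  -- `T` centralizes `N`
  have hTN : T ⊓ N = ⊥ := by
    apply disjoint_iff.mp
    apply Subgroup.disjoint_of_coprime_natCard
    obtain ⟨m, hm⟩ := IsPGroup.iff_card.mp hTq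
    rw [hm]
    exact hcopN m
  have hTC : T ≤ Subgroup.centralizer (N : Set J) := by
    intro t ht
    rw [Subgroup.mem_centralizer_iff]
    intro x hx
    have hxN : x ∈ N := hx
    have h1 : t * x * t⁻¹ * x⁻¹ ∈ T ⊓ N := by
      refine ⟨?_, ?_⟩
      · have hxn : x ∈ Subgroup.normalizer (T : Set J) := hTn (le_sup_left (b := R) hxN)
        have h2 : x * t⁻¹ * x⁻¹ ∈ T :=
          (Subgroup.mem_normalizer_iff.mp hxn t⁻¹).mp (T.inv_mem ht)
        have h3 : t * x * t⁻¹ * x⁻¹ = t * (x * t⁻¹ * x⁻¹) := by group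
        rw [h3]
        exact T.mul_mem ht h2
      · have htn : t ∈ Subgroup.normalizer (N : Set J) := hKN (hTK ht)
        have h2 : t * x * t⁻¹ ∈ N := (Subgroup.mem_normalizer_iff.mp htn x).mp hxN
        exact N.mul_mem h2 (N.inv_mem hxN)
    rw [hTN, Subgroup.mem_bot] at h1
    have h4 : t * x = x * t := by
      have : t * x = t * x * t⁻¹ * x⁻¹ * (x * t) := by group
      rw [this, h1, one_mul]
    exact h4.symm
  have hTbot : T = ⊥ := by
    rw [eq_bot_iff, ← hY]
    exact le_inf hTR hTC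
  -- `q ∤ |F|`
  have hqF : ¬ q ∣ Nat.card (Cfsg.fittingOf (N ⊔ R)) := by
    intro hdvd
    have h1 : (Q' : Subgroup (Cfsg.fittingOf (N ⊔ R))) ≠ ⊥ := Q'.ne_bot_of_dvd_card hdvd
    apply h1
    rw [hTdef] at hTbot
    exact (Subgroup.map_eq_bot_iff_of_injective _ (Subgroup.subtype_injective _)).mp hTbot
  -- `F ≤ N`
  have hFN : Cfsg.fittingOf (N ⊔ R) ≤ Subgroup.normalizer (N : Set J) := hFK.trans hKN
  have h1 : Nat.card (Cfsg.fittingOf (N ⊔ R) ⊔ N : Subgroup J) ∣
      Nat.card (Cfsg.fittingOf (N ⊔ R)) * Nat.card N :=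
    Cfsg.Agent.Lib.Helper1.Mix.card_sup_dvd _ N hFN
  have h2 : Nat.card (Cfsg.fittingOf (N ⊔ R) ⊔ N : Subgroup J) ∣ Nat.card N * Nat.card R :=
    (Subgroup.card_dvd_of_le (sup_le hFK le_sup_left)).trans hcardK
  have h3 : (Nat.card (Cfsg.fittingOf (N ⊔ R) ⊔ N : Subgroup J)).Coprime (Nat.card R) := by
    rw [hn]
    apply Nat.Coprime.pow_right
    apply Nat.Coprime.coprime_dvd_left h1
    exact Nat.Coprime.mul_left
      (((Nat.Prime.coprime_iff_not_dvd hq).mpr hqF).symm)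
      (((Nat.Prime.coprime_iff_not_dvd hq).mpr hqN).symm)
  have h4 : Nat.card (Cfsg.fittingOf (N ⊔ R) ⊔ N : Subgroup J) ∣ Nat.card N :=
    h3.dvd_of_dvd_mul_right h2
  have h5 : N = Cfsg.fittingOf (N ⊔ R) ⊔ N :=
    Subgroup.eq_of_le_of_card_ge le_sup_right (Nat.le_of_dvd Nat.card_pos h4)
  exact le_sup_left.trans h5.ge

/-- **PKG-B.** -/
theorem fpf_centralizes_pgroup {G : Type*} [Group G] [Finite G] (X N R : Subgroup G) (a : G)
    (hXs : Group.IsSolvable X) (hXo : Odd (Nat.card X)) (hNX : N ≤ X) (hRX : R ≤ X) (haX : a ∈ X)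
    {p q : ℕ} (hp : p.Prime) [Fact q.Prime] (hpq : p ≠ q) (hao : orderOf a = p)
    (haN : a ∈ Subgroup.normalizer (N : Set G)) (hRN : R ≤ Subgroup.normalizer (N : Set G))
    (haR : a ∈ Subgroup.normalizer (R : Set G)) (hR : IsPGroup q R) (hqN : ¬ q ∣ Nat.card N)
    (hpN : ¬ p ∣ Nat.card N) (hfpf : ∀ y ∈ N, a * y = y * a → y = 1)
    (hY : R ⊓ Subgroup.centralizer (N : Set G) = ⊥) : ∀ r ∈ R, a * r = r * a := by
  classical
  have hq : q.Prime := Fact.out
  obtain ⟨H, hHdef⟩ : ∃ H : Subgroup G, H = N ⊔ R ⊔ Subgroup.zpowers a := ⟨_, rfl⟩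
  have hNRH : N ⊔ R ≤ H := by rw [hHdef]; exact le_sup_left
  have hNH : N ≤ H := le_sup_left.trans hNRH
  have hRH : R ≤ H := le_sup_right.trans hNRH
  have hAH : Subgroup.zpowers a ≤ H := by rw [hHdef]; exact le_sup_right
  have haH : a ∈ H := hAH (Subgroup.mem_zpowers a)
  have hHX : H ≤ X := by
    rw [hHdef]
    exact sup_le (sup_le hNX hRX) ((Subgroup.zpowers_le).mpr haX)
  have : Group.IsSolvable X := hXs
  have : Group.IsSolvable H :=
    Group.isSolvable_of_isSolvable_injective (Subgroup.inclusion_injective hHX)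
  have hHodd : Odd (Nat.card H) := Odd.of_dvd_nat hXo (Subgroup.card_dvd_of_le hHX)
  obtain ⟨n, hn⟩ := IsPGroup.iff_card.mp hR
  -- `a` normalizes `N ⊔ R`
  have haNR : a ∈ Subgroup.normalizer ((N ⊔ R : Subgroup G) : Set G) := by
    rw [Subgroup.mem_normalizer_iff_map_conj_eq, Subgroup.map_sup,
      Subgroup.mem_normalizer_iff_map_conj_eq.mp haN, Subgroup.mem_normalizer_iff_map_conj_eq.mp haR]
  have hHNR : H ≤ Subgroup.normalizer ((N ⊔ R : Subgroup G) : Set G) := by
    rw [hHdef]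
    exact sup_le Subgroup.le_normalizer ((Subgroup.zpowers_le).mpr haNR)
  have hKn : ((N ⊔ R).subgroupOf H).Normal :=
    (Subgroup.normal_subgroupOf_iff_le_normalizer hNRH).mpr hHNR
  have hKA : (N ⊔ R).subgroupOf H ⊔ (Subgroup.zpowers a).subgroupOf H = ⊤ := by
    rw [← Subgroup.subgroupOf_sup hNRH hAH, ← hHdef, Subgroup.subgroupOf_self]
  have hcardNR : Nat.card (N ⊔ R : Subgroup G) ∣ Nat.card N * Nat.card R := by
    rw [sup_comm, mul_comm]
    exact Cfsg.Agent.Lib.Helper1.Mix.card_sup_dvd R N hRN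
  have hpR : (Nat.card R).Coprime p := by
    rw [hn]
    apply Nat.Coprime.pow_left
    exact (Nat.coprime_primes hq hp).mpr (Ne.symm hpq)
  have hpN' : (Nat.card N).Coprime p := ((Nat.Prime.coprime_iff_not_dvd hp).mpr hpN).symm
  have hcop : (Nat.card ((N ⊔ R).subgroupOf H)).Coprime
      (Nat.card ((Subgroup.zpowers a).subgroupOf H)) := by
    rw [Nat.card_congr (Subgroup.subgroupOfEquivOfLe hNRH).toEquiv,
      Nat.card_congr (Subgroup.subgroupOfEquivOfLe hAH).toEquiv, Nat.card_zpowers, hao]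
    exact Nat.Coprime.coprime_dvd_left hcardNR (Nat.Coprime.mul_left hpN' hpR)
  -- every nonidentity element of `⟨a⟩` generates it
  have hgen : ∀ x : G, x ∈ Subgroup.zpowers a → x ≠ 1 → Subgroup.zpowers a ≤ Subgroup.zpowers x := by
    intro x hx hx1
    have h1 : orderOf x ∣ p := by rw [← hao]; exact orderOf_dvd_of_mem_zpowers hx
    have h2 : orderOf x = p := by
      rcases (Nat.dvd_prime hp).mp h1 with h | h
      · exact absurd (orderOf_eq_one_iff.mp h) hx1
      · exact h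
    have h3 : Subgroup.zpowers x ≤ Subgroup.zpowers a := (Subgroup.zpowers_le).mpr hx
    have h4 : Subgroup.zpowers x = Subgroup.zpowers a := by
      apply Subgroup.eq_of_le_of_card_ge h3
      rw [Nat.card_zpowers, Nat.card_zpowers, h2, hao]
    rw [h4]
  have hprime : ∀ x ∈ (Subgroup.zpowers a).subgroupOf H, x ≠ 1 →
      (N ⊔ R).subgroupOf H ⊓ Subgroup.centralizer ({x} : Set H) =
        (N ⊔ R).subgroupOf H ⊓
          Subgroup.centralizer (((Subgroup.zpowers a).subgroupOf H : Subgroup H) : Set H) := by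
    intro x hx hx1
    have hxa : (x : G) ∈ Subgroup.zpowers a := Subgroup.mem_subgroupOf.mp hx
    have hx1' : (x : G) ≠ 1 := fun h => hx1 (Subtype.ext h)
    have hle := hgen (x : G) hxa hx1'
    congr 1
    ext y
    rw [Subgroup.mem_centralizer_iff, Subgroup.mem_centralizer_iff]
    constructor
    · intro h z hz
      have hz' : (z : G) ∈ Subgroup.zpowers (x : G) := hle (Subgroup.mem_subgroupOf.mp hz)
      obtain ⟨k, hk⟩ := Subgroup.mem_zpowers_iff.mp hz'
      have hxy : Commute (x : G) (y : G) := by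
        have := h x (Set.mem_singleton x)
        exact congrArg Subtype.val this
      have h2 : Commute ((x : G) ^ k) (y : G) := hxy.zpow_left k
      rw [hk] at h2
      exact Subtype.ext h2
    · intro h z hz
      rw [Set.mem_singleton_iff] at hz
      rw [hz]
      exact h x hx
  -- `F(K) ≤ N`
  have hFle : Cfsg.fittingOf ((N ⊔ R).subgroupOf H) ≤ N.subgroupOf H := by
    rw [Subgroup.subgroupOf_sup hNH hRH]
    apply fittingOf_sup_le_of_centralizer_bot (N.subgroupOf H) (R.subgroupOf H) (q := q)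
    · intro r hr
      rw [Subgroup.mem_normalizer_iff]
      intro h
      rw [Subgroup.mem_subgroupOf, Subgroup.mem_subgroupOf]
      exact Subgroup.mem_normalizer_iff.mp (hRN (Subgroup.mem_subgroupOf.mp hr)) (h : G)
    · exact hR.of_equiv (Subgroup.subgroupOfEquivOfLe hRH).symm
    · rw [Nat.card_congr (Subgroup.subgroupOfEquivOfLe hNH).toEquiv]
      exact hqN
    · rw [eq_bot_iff]
      intro x hx
      rw [Subgroup.mem_bot]
      have hxR : (x : G) ∈ R := Subgroup.mem_subgroupOf.mp hx.1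
      have hxC : (x : G) ∈ Subgroup.centralizer (N : Set G) := by
        rw [Subgroup.mem_centralizer_iff]
        intro y hy
        have hyN : y ∈ N := hy
        have := (Subgroup.mem_centralizer_iff.mp hx.2) ⟨y, hNH hyN⟩
          (Subgroup.mem_subgroupOf.mpr hyN)
        exact congrArg Subtype.val this
      have : (x : G) ∈ R ⊓ Subgroup.centralizer (N : Set G) := ⟨hxR, hxC⟩
      rw [hY, Subgroup.mem_bot] at this
      exact Subtype.ext this
  have hF : Cfsg.fittingOf ((N ⊔ R).subgroupOf H) ⊓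
      Subgroup.centralizer (((Subgroup.zpowers a).subgroupOf H : Subgroup H) : Set H) = ⊥ := by
    rw [eq_bot_iff]
    intro f hf
    rw [Subgroup.mem_bot]
    have hfN : (f : G) ∈ N := Subgroup.mem_subgroupOf.mp (hFle hf.1)
    have hfa := (Subgroup.mem_centralizer_iff.mp hf.2) ⟨a, haH⟩
      (Subgroup.mem_subgroupOf.mpr (Subgroup.mem_zpowers a))
    have hfa' : a * (f : G) = (f : G) * a := congrArg Subtype.val hfa
    exact Subtype.ext (hfpf (f : G) hfN hfa')
  have hmain := Cfsg.Agent.S1445.result hHodd ((N ⊔ R).subgroupOf H)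
    ((Subgroup.zpowers a).subgroupOf H) hKA hcop hprime hF
  have hNRbot : N ⊓ R = ⊥ := by
    apply disjoint_iff.mp
    apply Subgroup.disjoint_of_coprime_natCard
    rw [hn]
    exact (Nat.Coprime.pow_left n ((Nat.Prime.coprime_iff_not_dvd hq).mpr hqN)).symm
  intro r hr
  have h1 : ⁅(⟨r, hRH hr⟩ : H), (⟨a, haH⟩ : H)⁆ ∈ N.subgroupOf H := by
    apply hFle
    apply hmain
    apply Subgroup.commutator_mem_commutator
    · exact Subgroup.mem_subgroupOf.mpr (le_sup_right (a := N) hr)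
    · exact Subgroup.mem_subgroupOf.mpr (Subgroup.mem_zpowers a)
  have h2 : r * a * r⁻¹ * a⁻¹ ∈ N := Subgroup.mem_subgroupOf.mp h1
  have h3 : r * a * r⁻¹ * a⁻¹ ∈ R := by
    have h4 : a * r⁻¹ * a⁻¹ ∈ R := (Subgroup.mem_normalizer_iff.mp haR r⁻¹).mp (R.inv_mem hr)
    have h5 : r * a * r⁻¹ * a⁻¹ = r * (a * r⁻¹ * a⁻¹) := by group
    rw [h5]
    exact R.mul_mem hr h4
  have h6 : r * a * r⁻¹ * a⁻¹ ∈ N ⊓ R := ⟨h2, h3⟩
  rw [hNRbot, Subgroup.mem_bot] at h6
  have : a * r = (r * a * r⁻¹ * a⁻¹)⁻¹ * (r * a) := by group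
  rw [this, h6, inv_one, one_mul]

end Cfsg.Agent.Lib.Helper57.BG
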